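import Cfsg.Agent.H97.TC.G2Unip
import Cfsg.Agent.H631.Fpf.Par

/-!
# Centralizers of `p`-singular elements of `G₂(q)`, `p ≥ 5` (helper97, S2464, box [E])

`card_cent_sing`: `p ∣ orderOf g`: `g` is a long root element (conjugate to `X 11 1`) or `|C(g)| ≤ q ^ 4 (q ^ 2 - 1)`.
-/

set_option autoImplicit false
set_option linter.unusedSectionVars false

open Cfsg Subgroup

namespace Cfsg.Agent.H97.TC.G2C

open CoxeterSystem
open Cfsg Cfsg.Lie Cfsg.Lie.ChevalleyDatum
open Cfsg.Agent.ChevalleyStructure Cfsg.Agent.ChevalleyStructure.Elts Cfsg.Agent.ChevalleyStructure.CoxeterGeom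
  Cfsg.Agent.ChevalleyStructure.RootVec Cfsg.Agent.ChevalleyStructure.RootVecTab
  Cfsg.Agent.ChevalleyStructure.CoxeterGeomTypes Cfsg.Agent.ChevalleyStructure.NPerm
open Cfsg.Agent.Tits.Roots Cfsg.Agent.Tits.Core Cfsg.Agent.Nodes Cfsg.Agent.Nodes.Reps Cfsg.Agent.Nodes.BNOf
  Cfsg.Agent.Nodes.RGDChev Cfsg.Agent.Nodes.Bruhat Cfsg.Agent.Nodes.StabComb
open Cfsg.Agent.H35.ExcIdx Cfsg.Agent.H35.PoinNum Cfsg.Agent.Nodes.LeviDec Cfsg.Agent.KFacts.RgdBorelTits
open Cfsg.Agent.Omega.TwoF.GTwoLB (inG2 X H H_conj X_add X_zero X_neg rel0 rel1 X_eq_one)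
open Cfsg.Agent.H446.TC6.GTwoCent (hpG2 card_PJ PJ_mono card_cent_le)

/-- counting -/
theorem count' {ι Y : Type*} [Group Y] [Finite Y] (P : Subgroup Y) (u : Y) (hC : centralizer {u} ≤ P)
    (f : ι → Y) (hf : ∀ i, f i ∈ P) (hinj : Function.Injective (fun i => f i * u * (f i)⁻¹)) :
    Nat.card ι * Nat.card (centralizer {u}) ≤ Nat.card P := by
  rw [← Nat.card_prod]
  refine Nat.card_le_card_of_injective (fun x : ι × centralizer {u} =>
    (⟨f x.1 * x.2, P.mul_mem (hf _) (hC x.2.2)⟩ : P)) ?_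
  rintro ⟨c, x⟩ ⟨c', x'⟩ h
  have h2 : f c * (x : Y) = f c' * (x' : Y) := congrArg Subtype.val h
  have hx : (x : Y) * u = u * x := (mem_centralizer_singleton_iff.1 x.2).symm ▸ rfl
  have hx' : (x' : Y) * u = u * x' := (mem_centralizer_singleton_iff.1 x'.2).symm ▸ rfl
  have key : ∀ (a b : Y), b * u = u * b → (a * b) * u * (a * b)⁻¹ = a * u * a⁻¹ := by
    intro a b hb
    have : a * b * u = a * u * b := by rw [mul_assoc, hb, mul_assoc]
    rw [this]
    group
  have h3 := key (f c) x hx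
  have h4 := key (f c') x' hx'
  rw [h2, h4] at h3
  have h5 : c = c' := hinj h3.symm
  subst h5
  have h7 := mul_left_cancel h2
  rw [Subtype.ext h7]

variable (K : Type) [Field K] [Fintype K] (p : ℕ) [hp : Fact p.Prime] [CharP K p]

/-- the parabolic subgroup -/
abbrev PP (j : Fin 2) : Subgroup ↥(chevG2.group K) :=
  PJ CoxeterMatrix.G₂.toCoxeterSystem hpG2.isCartan (TT chevG2 K) (XX chevG2 2 K) {k | k ≠ j}

theorem BB_le_PP (j : Fin 2) : BB K ≤ PP K j := by
  have h1 := H115.borel_eq (K := K) hpG2 CoxeterMatrix.G₂.toCoxeterSystem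
  have h2 : RGD.B CoxeterMatrix.G₂.toCoxeterSystem hpG2.isCartan (TT chevG2 K) (XX chevG2 2 K) ≤ PP K j := B_le_PJ
  exact le_trans (le_of_eq h1.symm) h2

include hp in
/-- **Unipotent elements.** -/
theorem card_cent_unip (h2 : (2 : K) ≠ 0) (h3 : (3 : K) ≠ 0) {u : ↥(chevG2.group K)} (hu : u ≠ 1)
    (hup : ∃ k, orderOf u = p ^ k) : IsConj (X 11 1) u ∨
    Nat.card ↥(centralizer ({u} : Set ↥(chevG2.group K))) ≤ Fintype.card K ^ 4 * (Fintype.card K ^ 2 - 1) := by
  have hW := finite_W hpG2 CoxeterMatrix.G₂.toCoxeterSystem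
  have hfin : Finite ↥(chevG2.group K) := inferInstance
  have hFil := KFacts.RgdFiltChev.filt (K := K) hpG2 CoxeterMatrix.G₂.toCoxeterSystem p
  have hG := H35.ExcIdx.GG_eq_top hpG2 K CoxeterMatrix.G₂.toCoxeterSystem
  have R := rgd (K := K) hpG2 CoxeterMatrix.G₂.toCoxeterSystem p
  have hK : IsPGroup p (zpowers u) := by
    obtain ⟨k, hk⟩ := hup
    exact IsPGroup.of_card (n := k) (by rw [Nat.card_zpowers, hk])
  obtain ⟨g, J, hJ, hle, hN⟩ := borel_tits hFil hG hK (by rw [Ne, zpowers_eq_bot]; exact hu)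
  obtain ⟨j, hj⟩ : ∃ j, j ∉ J := by
    by_contra hcon
    push Not at hcon
    exact hJ (Set.eq_univ_of_forall hcon)
  have hJj : J ⊆ {k | k ≠ j} := by
    rintro k hk rfl
    exact hj hk
  have hN' := hN.trans (Subgroup.map_mono (f := (MulAut.conj g).toMonoidHom) (PJ_mono R hJj))
  obtain ⟨v, hv, hvu⟩ : ∃ v ∈ VJ CoxeterMatrix.G₂.toCoxeterSystem hpG2.isCartan (XX chevG2 2 K) J, g * v * g⁻¹ = u := by
    obtain ⟨v, hv, hvu⟩ := hle (mem_zpowers u)
    exact ⟨v, hv, hvu⟩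
  have hvU : (v : GL chevG2.Idx K) ∈ chevG2.posUnipotent K := by
    have h1 := VJ_le_U J hv
    rw [H115.sup_pos_eq hpG2 CoxeterMatrix.G₂.toCoxeterSystem, mem_subgroupOf] at h1
    exact h1
  have hv1 : v ≠ 1 := by
    rintro rfl
    apply hu
    rw [← hvu]
    group
  rcases unip h3 h2 hvU hv1 with hlong | ⟨f, hf, hinj⟩
  · exact Or.inl (hlong.trans (isConj_iff.2 ⟨g, hvu⟩))
  right
  have h1 := count' (cj g (PP K j)) u ?_ (fun i => g * f i * g⁻¹) ?_ ?_
  · have h4 : Nat.card ↥(cj g (PP K j)) = Fintype.card K ^ 6 * ((1 + Fintype.card K) * (Fintype.card K - 1) ^ 2) := by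
      rw [← card_PJ K p j]
      exact Nat.card_congr (Subgroup.equivMapOfInjective _ _ (MulAut.conj g).injective).symm.toEquiv
    rw [h4, Nat.card_prod, Nat.card_prod, Nat.card_units, Nat.card_eq_fintype_card (α := K)] at h1
    have hq : 1 < Fintype.card K := Fintype.one_lt_card
    obtain ⟨m, hm⟩ : ∃ m, Fintype.card K = m + 1 := ⟨Fintype.card K - 1, by omega⟩
    rw [hm] at h1 hq ⊢
    have h3 : (m + 1) ^ 2 - 1 = m * (m + 2) := by
      have : (m + 1) ^ 2 = m * (m + 2) + 1 := by ring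
      rw [this, Nat.add_sub_cancel]
    rw [h3]
    rw [Nat.add_sub_cancel] at h1
    have hm0 : 0 < m := by omega
    have h5 : 0 < m * ((m + 1) * (m + 1)) := by positivity
    refine le_of_mul_le_mul_left (h1.trans (le_of_eq ?_)) h5
    ring
  · refine le_trans ?_ hN'
    intro x hx
    have hx' := mem_centralizer_singleton_iff.1 hx
    refine Subgroup.centralizer_le_normalizer _ ?_
    rw [mem_centralizer_iff]
    rintro y ⟨n, rfl⟩
    exact (Commute.zpow_left (show Commute u x from hx'.symm) n)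
  · intro i
    exact ⟨f i, BB_le_PP K j (hf i), rfl⟩
  · intro i i' h
    apply hinj
    beta_reduce at h ⊢
    rw [← hvu] at h
    have e : ∀ a : ↥(chevG2.group K), g * a * g⁻¹ * (g * v * g⁻¹) * (g * a * g⁻¹)⁻¹ = g * (a * v * a⁻¹) * g⁻¹ := by
      intro a; group
    simp only [e] at h
    exact mul_left_cancel (mul_right_cancel h)

/-! ### the parabolic subgroup of the long root -/

theorem mem_XX {r : ℕ} (hr : r < 12) (y : ↥(chevG2.group K)) :
    y ∈ XX chevG2 2 K (vec chevG2 2 r) ↔ ∃ a, y = X r a := by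
  rw [Subgroup.mem_subgroupOf, XV_vec hpG2 K (show r < chevG2.nroots from hr), mem_rootSubgroup_iff inG2]
  constructor
  · rintro ⟨a, ha⟩
    exact ⟨a, Subtype.ext ha⟩
  · rintro ⟨a, rfl⟩
    exact ⟨a, rfl⟩

theorem notJ_idx {x : Fin 2 → ℤ} (hx : x ∈ NotJ CoxeterMatrix.G₂.toCoxeterSystem hpG2.isCartan {k | k ≠ 1}) :
    ∃ r, (r = 6 ∨ r = 8 ∨ r = 9 ∨ r = 10 ∨ r = 11) ∧ vec chevG2 2 r = x := by
  obtain ⟨h1, h2, k, hk, hk0⟩ := hx
  obtain ⟨r, hr, rfl⟩ := (isRoot_iff hpG2 _ _).1 h1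
  have hk1 : k = 1 := by
    by_contra h
    exact hk h
  subst hk1
  refine ⟨r, ?_, rfl⟩
  have h3 := h2 0
  have h4 : r < 12 := hr
  simp only [Pi.zero_apply] at h3
  clear h1 h2 hr hk
  interval_cases r <;> revert h3 hk0 <;> decide

theorem idx_notJ {r : ℕ} (hr : r = 6 ∨ r = 8 ∨ r = 9 ∨ r = 10 ∨ r = 11) :
    vec chevG2 2 r ∈ NotJ CoxeterMatrix.G₂.toCoxeterSystem hpG2.isCartan {k | k ≠ 1} := by
  have hr' : r < chevG2.nroots := by
    show r < 12
    omega
  refine ⟨isRoot_vec hpG2 _ hr', ?_, 1, by simp, ?_⟩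
  · intro i
    rcases hr with rfl | rfl | rfl | rfl | rfl <;> fin_cases i <;> decide
  · rcases hr with rfl | rfl | rfl | rfl | rfl <;> decide

theorem rootsJ_idx {x : Fin 2 → ℤ} (hx : x ∈ RootsJ CoxeterMatrix.G₂.toCoxeterSystem hpG2.isCartan {k | k ≠ 1}) :
    ∃ r, (r = 4 ∨ r = 7) ∧ vec chevG2 2 r = x := by
  obtain ⟨h1, h2⟩ := hx
  obtain ⟨r, hr, rfl⟩ := (isRoot_iff hpG2 _ _).1 h1
  refine ⟨r, ?_, rfl⟩
  have h3 := h2 1 (by simp)
  have h4 : r < 12 := hr
  clear h1 h2 hr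
  interval_cases r <;> revert h3 <;> decide

variable {K}

/-- the radical -/
abbrev VV (K : Type) [Field K] : Subgroup ↥(chevG2.group K) :=
  VJ CoxeterMatrix.G₂.toCoxeterSystem hpG2.isCartan (XX chevG2 2 K) {k | k ≠ 1}

theorem X_mem_VV {r : ℕ} (hr : r = 6 ∨ r = 8 ∨ r = 9 ∨ r = 10 ∨ r = 11) (a : K) : X r a ∈ VV K :=
  RGD.le_Sup (idx_notJ hr) ((mem_XX K (by omega) _).2 ⟨a, rfl⟩)

theorem Q_eq (h3 : (3 : K) ≠ 0) : (g2_h5 K h3).Q = VV K := by
  apply le_antisymm
  · rintro _ ⟨a, b, c, d, e, rfl⟩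
    exact mul_mem (mul_mem (mul_mem (mul_mem (X_mem_VV (by norm_num) _) (X_mem_VV (by norm_num) _))
      (X_mem_VV (by norm_num) _)) (X_mem_VV (by norm_num) _)) (X_mem_VV (by norm_num) _)
  · refine RGD.Sup_le fun x hx y hy => ?_
    obtain ⟨r, hr, rfl⟩ := notJ_idx hx
    obtain ⟨a, rfl⟩ := (mem_XX K (by omega) y).1 hy
    rcases hr with rfl | rfl | rfl | rfl | rfl
    · exact ⟨a, 0, 0, 0, 0, by simp only [H5.P, X_zero, mul_one]⟩
    · exact ⟨0, a, 0, 0, 0, by simp only [H5.P, X_zero, mul_one, one_mul]⟩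
    · exact ⟨0, 0, a, 0, 0, by simp only [H5.P, X_zero, mul_one, one_mul]⟩
    · exact ⟨0, 0, 0, a, 0, by simp only [H5.P, X_zero, mul_one, one_mul]⟩
    · exact ⟨0, 0, 0, 0, a, by simp only [H5.P, X_zero, one_mul]⟩

/-- the elements acting on `X 11` by scalars -/
def Scal (K : Type) [Field K] : Subgroup ↥(chevG2.group K) where
  carrier := {g | ∃ c : K, c ≠ 0 ∧ ∀ u, g * X 11 u * g⁻¹ = X 11 (c * u)}
  one_mem' := ⟨1, one_ne_zero, fun u => by rw [one_mul, inv_one, mul_one, one_mul]⟩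
  mul_mem' := by
    rintro g g' ⟨c, hc, h⟩ ⟨c', hc', h'⟩
    refine ⟨c * c', mul_ne_zero hc hc', fun u => ?_⟩
    rw [show g * g' * X 11 u * (g * g')⁻¹ = g * (g' * X 11 u * g'⁻¹) * g⁻¹ by group, h', h, mul_assoc]
  inv_mem' := by
    rintro g ⟨c, hc, h⟩
    refine ⟨c⁻¹, inv_ne_zero hc, fun u => ?_⟩
    have h1 := h (c⁻¹ * u)
    rw [← mul_assoc, mul_inv_cancel₀ hc, one_mul] at h1
    rw [← h1]
    group

theorem comm_11 {r : ℕ} (hr : r = 4 ∨ r = 7 ∨ r = 6 ∨ r = 8 ∨ r = 9 ∨ r = 10) (t u : K) :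
    X 11 u * X r t = X r t * X 11 u := by
  rcases hr with rfl | rfl | rfl | rfl | rfl | rfl
  · exact rel0 (r := 4) (s := 11) (by norm_num) (by norm_num) (by decide) (by decide) (by decide +kernel) t u
  · exact rel0 (r := 7) (s := 11) (by norm_num) (by norm_num) (by decide) (by decide) (by decide +kernel) t u
  · exact rel0 (r := 6) (s := 11) (by norm_num) (by norm_num) (by decide) (by decide) (by decide +kernel) t u
  · exact rel0 (r := 8) (s := 11) (by norm_num) (by norm_num) (by decide) (by decide) (by decide +kernel) t u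
  · exact rel0 (r := 9) (s := 11) (by norm_num) (by norm_num) (by decide) (by decide) (by decide +kernel) t u
  · exact rel0 (r := 10) (s := 11) (by norm_num) (by norm_num) (by decide) (by decide) (by decide +kernel) t u

theorem X_mem_Scal {r : ℕ} (hr : r = 4 ∨ r = 7 ∨ r = 6 ∨ r = 8 ∨ r = 9 ∨ r = 10 ∨ r = 11) (t : K) :
    X r t ∈ Scal K := by
  refine ⟨1, one_ne_zero, fun u => ?_⟩
  have h1 : X 11 u * X r t = X r t * X 11 u := by
    by_cases h : r = 11
    · subst h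
      rw [← X_add, ← X_add, add_comm]
    · exact comm_11 (by omega) t u
  rw [one_mul, ← h1, mul_inv_cancel_right]

theorem PP_le_Scal : PP K 1 ≤ Scal K := by
  refine sup_le (sup_le ?_ ?_) ?_
  · intro t ht
    obtain ⟨c, hc0, hct⟩ := BNChev.diagonal_conj inG2 (F := K) (h := t) ht (show 11 < chevG2.nroots by decide)
    exact ⟨c, hc0, fun a => Subtype.ext (hct a)⟩
  · refine RGD.Sup_le fun x hx y hy => ?_
    obtain ⟨r, hr, rfl⟩ := rootsJ_idx hx
    obtain ⟨a, rfl⟩ := (mem_XX K (by omega) y).1 hy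
    exact X_mem_Scal (by omega) a
  · refine RGD.Sup_le fun x hx y hy => ?_
    obtain ⟨r, hr, rfl⟩ := notJ_idx hx
    obtain ⟨a, rfl⟩ := (mem_XX K (by omega) y).1 hy
    exact X_mem_Scal (by omega) a

theorem X11_inj {a b : K} (h : X 11 a = X 11 b) : a = b := by
  have h1 : X 11 (a - b) = 1 := by
    have h2 : X 11 (a - b) * X 11 b = X 11 b := by rw [← X_add, sub_add_cancel, h]
    exact mul_eq_right.1 h2
  exact sub_eq_zero.1 ((X_eq_one (by norm_num)).1 h1)

variable (K)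

include hp in
/-- `C(X 11 1)` lies in the parabolic subgroup. -/
theorem cent_le_PP : centralizer {(X 11 1 : ↥(chevG2.group K))} ≤ PP K 1 := by
  have hfin : Finite ↥(chevG2.group K) := inferInstance
  have h11 : (X 11 (1 : K)) ≠ 1 := fun h => one_ne_zero ((X_eq_one (by norm_num)).1 h)
  have hord : ∃ k, orderOf (X 11 (1 : K)) = p ^ k := by
    refine ⟨1, ?_⟩
    rw [pow_one]
    refine orderOf_eq_prime ?_ h11
    rw [Cfsg.Agent.Omega.TwoF.GTwoLB.X_pow, CharP.cast_eq_zero, zero_mul, X_zero]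
  have hle := card_cent_le K p h11 hord
  have hS : ∀ g : PP K 1, ∃ c : K, c ≠ 0 ∧ ∀ u, (g : ↥(chevG2.group K)) * X 11 u * (g : ↥(chevG2.group K))⁻¹ = X 11 (c * u) :=
    fun g => PP_le_Scal g.2
  choose c hc0 hc using hS
  let φ : PP K 1 →* Kˣ := MonoidHom.mk' (fun g => Units.mk0 (c g) (hc0 g)) (by
    intro a b
    apply Units.ext
    simp only [Units.val_mk0, Units.val_mul]
    have h1 := hc (a * b) 1
    have e1 : ∀ (x y z : ↥(chevG2.group K)), x * y * z * (x * y)⁻¹ = x * (y * z * y⁻¹) * x⁻¹ := by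
      intro x y z; group
    rw [Subgroup.coe_mul, e1, hc, hc] at h1
    have := X11_inj h1
    rw [mul_one, mul_one] at this
    exact this.symm)
  have hker : φ.ker.map (PP K 1).subtype ≤ centralizer {(X 11 1 : ↥(chevG2.group K))} := by
    rintro _ ⟨g, hg, rfl⟩
    rw [mem_centralizer_singleton_iff]
    have h1 : c g = 1 := by
      have := congrArg (fun x : Kˣ => (x : K)) (MonoidHom.mem_ker.1 hg)
      exact this
    have h2 := hc g 1
    rw [h1, one_mul, mul_inv_eq_iff_eq_mul] at h2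
    exact h2
  have h1 : Nat.card ↥(PP K 1) ≤ (Fintype.card K - 1) * Nat.card ↥(φ.ker) := by
    have h2 := Subgroup.card_mul_index φ.ker
    rw [Subgroup.index_ker] at h2
    have h3 : Nat.card ↥φ.range ≤ Fintype.card K - 1 := by
      rw [← Nat.card_eq_fintype_card (α := K), ← Nat.card_units K]
      exact Nat.card_le_card_of_injective _ Subtype.val_injective
    rw [← h2, mul_comm]
    exact Nat.mul_le_mul_right _ h3
  rw [card_PJ K p 1] at h1
  have h2 : Fintype.card K ^ 6 * (Fintype.card K ^ 2 - 1) ≤ Nat.card ↥(φ.ker) := by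
    have hq : 1 < Fintype.card K := Fintype.one_lt_card
    obtain ⟨m, hm⟩ : ∃ m, Fintype.card K = m + 1 := ⟨Fintype.card K - 1, by omega⟩
    rw [hm] at h1 hq ⊢
    have h3 : (m + 1) ^ 2 - 1 = m * (m + 2) := by
      have : (m + 1) ^ 2 = m * (m + 2) + 1 := by ring
      rw [this, Nat.add_sub_cancel]
    rw [h3]
    rw [Nat.add_sub_cancel] at h1
    have hm0 : 0 < m := by omega
    refine le_of_mul_le_mul_left (le_trans (le_of_eq ?_) h1) hm0
    ring
  have h3 : Nat.card ↥(φ.ker.map (PP K 1).subtype) = Nat.card ↥(φ.ker) :=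
    Nat.card_congr (Subgroup.equivMapOfInjective _ _ (PP K 1).subtype_injective).symm.toEquiv
  have h4 : φ.ker.map (PP K 1).subtype = centralizer {(X 11 1 : ↥(chevG2.group K))} :=
    Subgroup.eq_of_le_of_card_ge hker (by rw [h3]; exact hle.trans h2)
  rw [← h4]
  exact map_subtype_le _

theorem noncomm [IsSimpleGroup ↥(chevG2.group K)] (h3 : (3 : K) ≠ 0) : ∃ a b : ↥(chevG2.group K), a * b ≠ b * a := by
  refine ⟨X 6 1, X 10 1, fun h => ?_⟩
  have h1 := (g2_h5 K h3).AD 1 1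
  rw [← h] at h1
  have h2 := mul_eq_left.1 h1.symm
  have h4 := (X_eq_one (by norm_num)).1 h2
  simp at h4

include hp in
/-- **mixed elements over a long root element** -/
theorem card_cent_mixed [IsSimpleGroup ↥(chevG2.group K)] (h3 : (3 : K) ≠ 0) {s : ↥(chevG2.group K)}
    (hs : s * X 11 1 = X 11 1 * s) (hs1 : s ≠ 1) {m : ℕ} (hm : s ^ m = 1) (hmp : ¬ p ∣ m)
    (hC : centralizer ({s * X 11 1} : Set ↥(chevG2.group K)) ≤ centralizer {(X 11 1 : ↥(chevG2.group K))}) :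
    Nat.card ↥(centralizer ({s * X 11 1} : Set ↥(chevG2.group K))) ≤
      Fintype.card K ^ 4 * (Fintype.card K ^ 2 - 1) := by
  have hfin : Finite ↥(chevG2.group K) := inferInstance
  have hW := finite_W hpG2 CoxeterMatrix.G₂.toCoxeterSystem
  have R := rgd (K := K) hpG2 CoxeterMatrix.G₂.toCoxeterSystem p
  have h := g2_h5 K h3
  have h11 : (X 11 (1 : K)) ≠ 1 := fun h => one_ne_zero ((X_eq_one (by norm_num)).1 h)
  have hord : ∃ k, orderOf (X 11 (1 : K)) = p ^ k := by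
    refine ⟨1, ?_⟩
    rw [pow_one]
    refine orderOf_eq_prime ?_ h11
    rw [Cfsg.Agent.Omega.TwoF.GTwoLB.X_pow, CharP.cast_eq_zero, zero_mul, X_zero]
  have hle := card_cent_le K p h11 hord
  have hsP : s ∈ PP K 1 := cent_le_PP K p (mem_centralizer_singleton_iff.2 hs)
  have hsZ : ∀ e, s * X 11 e * s⁻¹ = X 11 e := by
    obtain ⟨c, -, hc⟩ := PP_le_Scal hsP
    have h1 := hc 1
    rw [hs, mul_inv_cancel_right, mul_one] at h1
    have h2 := X11_inj h1
    intro e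
    rw [hc, ← h2, one_mul]
  have hsN : ∀ x ∈ h.Q, s * x * s⁻¹ ∈ h.Q := by
    intro x hx
    rw [Q_eq h3] at hx ⊢
    exact (Subgroup.mem_normalizer_iff.1 (PJ_le_normalizer_VJ R _ hsP) x).1 hx
  have hmF : (m : K) ≠ 0 := fun h => hmp ((CharP.cast_eq_zero_iff K p m).1 h)
  have hne : ∃ x ∈ h.Q, s * x * s⁻¹ ≠ x := by
    by_contra hcon
    push Not at hcon
    have h1 : s ∈ VV K := by
      refine H631.Fpf.centralizer_VJ_le R (G1_eq_top hpG2 _) (noncomm K h3) (J := {k | k ≠ 1}) ⟨1, by simp⟩ ?_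
      rw [Subgroup.mem_centralizer_iff]
      intro x hx
      have := hcon x (by rw [Q_eq h3]; exact hx)
      rw [mul_inv_eq_iff_eq_mul] at this
      exact this.symm
    have h2 := Cfsg.Agent.KFacts.RgdCharP.isPGroup_VJ R {k : Fin 2 | k ≠ 1}
    obtain ⟨k, hk⟩ := h2 ⟨s, h1⟩
    have h4 : s ^ p ^ k = 1 := congrArg Subtype.val hk
    have h5 : orderOf s ∣ 1 := by
      have h6 : Nat.Coprime (p ^ k) m := Nat.Coprime.pow_left k ((Nat.Prime.coprime_iff_not_dvd hp.out).2 hmp)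
      rw [← h6]
      exact Nat.dvd_gcd (orderOf_dvd_of_pow_eq_one h4) (orderOf_dvd_of_pow_eq_one hm)
    exact hs1 (orderOf_eq_one_iff.1 (Nat.dvd_one.1 h5))
  obtain ⟨f, hf, hinj⟩ := h.two hsN hsZ hm hmF hne
  have hfC : ∀ i, f i * X 11 1 = X 11 1 * f i := fun i => h.comm_ZQ ⟨1, rfl⟩ (hf i)
  have h1 := count' (centralizer {(X 11 1 : ↥(chevG2.group K))}) (s * X 11 1) hC f
    (fun i => mem_centralizer_singleton_iff.2 (hfC i)) (by
      intro i j hij
      apply hinj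
      have e : ∀ i, f i * (s * X 11 1) * (f i)⁻¹ = f i * s * (f i)⁻¹ * X 11 1 := by
        intro i
        have e1 : X 11 1 * (f i)⁻¹ = (f i)⁻¹ * X 11 1 := by
          rw [eq_inv_mul_iff_mul_eq, ← mul_assoc, hfC, mul_inv_cancel_right]
        calc f i * (s * X 11 1) * (f i)⁻¹ = f i * s * (X 11 1 * (f i)⁻¹) := by group
          _ = _ := by rw [e1]; group
      beta_reduce at hij ⊢
      rw [e, e] at hij
      exact mul_right_cancel hij)
  rw [Nat.card_prod, Nat.card_eq_fintype_card (α := K)] at h1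
  have hq : 0 < Fintype.card K := Fintype.card_pos
  refine le_of_mul_le_mul_left ((h1.trans hle).trans (le_of_eq ?_))
    (show 0 < Fintype.card K * Fintype.card K by positivity)
  ring

theorem card_cent_conj {G : Type*} [Group G] [Finite G] (g y : G) :
    Nat.card (centralizer ({g} : Set G)) ≤ Nat.card (centralizer ({y⁻¹ * g * y} : Set G)) := by
  refine Nat.card_le_card_of_injective (fun x : centralizer ({g} : Set G) =>
    (⟨y⁻¹ * x * y, ?_⟩ : centralizer ({y⁻¹ * g * y} : Set G))) ?_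
  · rw [mem_centralizer_singleton_iff]
    have := mem_centralizer_singleton_iff.1 x.2
    calc y⁻¹ * x * y * (y⁻¹ * g * y) = y⁻¹ * (x * g) * y := by group
      _ = y⁻¹ * (g * x) * y := by rw [this]
      _ = _ := by group
  · intro a b hab
    have h1 : y⁻¹ * (a : G) * y = y⁻¹ * b * y := congrArg Subtype.val hab
    exact Subtype.ext (mul_left_cancel (mul_right_cancel h1))

include hp in
/-- **Box [E].** Centralizers of `p`-singular elements, `p ≥ 5`. -/
theorem card_cent_sing [IsSimpleGroup ↥(chevG2.group K)] (h2 : (2 : K) ≠ 0) (h3 : (3 : K) ≠ 0)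
    {g : ↥(chevG2.group K)} (hg : p ∣ orderOf g) : IsConj (X 11 1) g ∨
    Nat.card ↥(centralizer ({g} : Set ↥(chevG2.group K))) ≤ Fintype.card K ^ 4 * (Fintype.card K ^ 2 - 1) := by
  have hfin : Finite ↥(chevG2.group K) := inferInstance
  obtain ⟨k, m, hmp, hn⟩ := Nat.exists_eq_pow_mul_and_not_dvd (orderOf_pos g).ne' p hp.out.ne_one
  have hcop : Nat.Coprime (p ^ k) m := Nat.Coprime.pow_left k ((Nat.Prime.coprime_iff_not_dvd hp.out).2 hmp)
  have hbez := Nat.gcd_eq_gcd_ab (p ^ k) m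
  rw [hcop] at hbez
  obtain ⟨a, ha⟩ : ∃ a, a = Nat.gcdA (p ^ k) m := ⟨_, rfl⟩
  obtain ⟨b, hb⟩ : ∃ b, b = Nat.gcdB (p ^ k) m := ⟨_, rfl⟩
  rw [← ha, ← hb] at hbez
  have hgn : g ^ (p ^ k * m) = 1 := by rw [← hn]; exact pow_orderOf_eq_one g
  have hgnz : g ^ (((p ^ k : ℕ) : ℤ) * (m : ℤ)) = 1 := by
    rw [← Nat.cast_mul, zpow_natCast]; exact hgn
  obtain ⟨v, hv⟩ : ∃ v, v = g ^ ((m : ℤ) * b) := ⟨_, rfl⟩
  obtain ⟨s, hs⟩ : ∃ s, s = g ^ (((p ^ k : ℕ) : ℤ) * a) := ⟨_, rfl⟩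
  have hsv : s * v = g := by
    rw [hs, hv, ← zpow_add, ← hbez]; simp
  have hvs : v * s = s * v := by
    rw [hs, hv, ← zpow_add, ← zpow_add, add_comm]
  have hvp : v ^ p ^ k = 1 := by
    rw [hv, ← zpow_natCast, ← zpow_mul, show (m : ℤ) * b * ((p ^ k : ℕ) : ℤ) = (((p ^ k : ℕ) : ℤ) * (m : ℤ)) * b by ring,
      zpow_mul, hgnz, one_zpow]
  have hsm : s ^ m = 1 := by
    rw [hs, ← zpow_natCast, ← zpow_mul, show ((p ^ k : ℕ) : ℤ) * a * (m : ℤ) = (((p ^ k : ℕ) : ℤ) * (m : ℤ)) * a by ring,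
      zpow_mul, hgnz, one_zpow]
  have hv1 : v ≠ 1 := by
    intro h
    rw [h, mul_one] at hsv
    rw [hsv] at hsm
    exact hmp (hg.trans (orderOf_dvd_of_pow_eq_one hsm))
  have hvo : ∃ j, orderOf v = p ^ j := by
    obtain ⟨j, -, hj⟩ := (Nat.dvd_prime_pow hp.out).1 (orderOf_dvd_of_pow_eq_one hvp)
    exact ⟨j, hj⟩
  have hCv : centralizer ({g} : Set ↥(chevG2.group K)) ≤ centralizer {v} := by
    intro x hx
    rw [mem_centralizer_singleton_iff] at hx ⊢
    rw [hv]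
    exact Commute.zpow_right (show Commute x g from hx) _
  rcases card_cent_unip K p h2 h3 hv1 hvo with hlong | hbd
  · by_cases hs1 : s = 1
    · left
      rw [hs1, one_mul] at hsv
      rw [← hsv]
      exact hlong
    right
    obtain ⟨y, hy⟩ := isConj_iff.1 hlong
    have e1 : y⁻¹ * v * y = X 11 1 := by rw [← hy]; group
    have e2 : y⁻¹ * g * y = (y⁻¹ * s * y) * X 11 1 := by rw [← e1, ← hsv]; group
    refine (card_cent_conj g y).trans ?_
    rw [e2]
    refine card_cent_mixed K p h3 ?_ ?_ (m := m) ?_ hmp ?_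
    · rw [← e1]
      calc y⁻¹ * s * y * (y⁻¹ * v * y) = y⁻¹ * (s * v) * y := by group
        _ = y⁻¹ * (v * s) * y := by rw [hvs]
        _ = _ := by group
    · intro h
      apply hs1
      have : s = y * (y⁻¹ * s * y) * y⁻¹ := by group
      rw [this, h]; group
    · have : y⁻¹ * s * y = y⁻¹ * s * (y⁻¹)⁻¹ := by rw [inv_inv]
      rw [this, conj_pow, hsm]; group
    · rw [← e2, ← e1]
      intro x hx
      rw [mem_centralizer_singleton_iff] at hx ⊢
      have h5 : y⁻¹ * v * y = (y⁻¹ * g * y) ^ ((m : ℤ) * b) := by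
        have : y⁻¹ * g * y = y⁻¹ * g * (y⁻¹)⁻¹ := by rw [inv_inv]
        rw [this, conj_zpow, ← hv, inv_inv]
      rw [h5]
      exact Commute.zpow_right (show Commute x (y⁻¹ * g * y) from hx) _
  · right
    exact (Nat.le_of_dvd Nat.card_pos (Subgroup.card_dvd_of_le hCv)).trans hbd

end Cfsg.Agent.H97.TC.G2C
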