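import Cfsg.Agent.H97.TC.HeisTwo
import Cfsg.Agent.H446.TC6.GTwoSing

/-!
# Unipotent elements of `G₂(q)`: conjugates in the Borel subgroup (helper97, S2464, box [E])

`unip`: `v ∈ U`, `v ≠ 1` is a long root element (conjugate to `X 11 1`) or has at least `q ^ 2 (q - 1)` conjugates
under `B` (`2 ≠ 0`, `3 ≠ 0`).
-/

set_option autoImplicit false

open Cfsg Subgroup

namespace Cfsg.Agent.H97.TC.G2C

open Cfsg Cfsg.Lie Cfsg.Lie.ChevalleyDatum Cfsg.Agent.ChevalleyStructure Cfsg.Agent.ChevalleyStructure.Elts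
open Cfsg.Agent.Omega.TwoF.GTwoLB (inG2 X H H_conj X_add X_zero X_neg rel0 rel1 X_eq_one)

universe u

variable {F : Type u} [Field F]

/-- the general element of `Q` -/
noncomputable abbrev Q5 (a b c d e : F) : ↥(chevG2.group F) := H5.P (X 6) (X 8) (X 9) (X 10) (X 11) a b c d e

theorem Q5_congr {b c d e f b' c' d' e' f' : F} (h1 : b = b') (h2 : c = c') (h3 : d = d') (h4 : e = e')
    (h5 : f = f') : Q5 b c d e f = Q5 b' c' d' e' f' := by
  rw [h1, h2, h3, h4, h5]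

theorem rel7_6 (t u : F) : X 6 u * X 7 t =
    X 7 t * (X 6 u * X 8 (t * u) * X 9 (t ^ 2 * u) * X 10 (-(t ^ 3 * u)) * X 11 (-(t ^ 3 * u ^ 2))) := by
  apply Subtype.ext
  refine Units.ext ?_
  show chevG2.x F 6 u * chevG2.x F 7 t = chevG2.x F 7 t * (chevG2.x F 6 u * chevG2.x F 8 (t * u) *
    chevG2.x F 9 (t ^ 2 * u) * chevG2.x F 10 (-(t ^ 3 * u)) * chevG2.x F 11 (-(t ^ 3 * u ^ 2)))
  have h1 := S1025.result (F := F) chevG2 inG2 7 6 (show 7 < 12 by norm_num) (show 6 < 12 by norm_num) (by decide) (by decide) t u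
  rw [ChevalleyDatum.commWord, show chevG2.commTerms 7 6 = [(8, -1, 1, 1), (9, 1, 2, 1), (10, 1, 3, 1), (11, 1, 3, 2)]
    by decide +kernel] at h1
  rw [h1]
  show _ * chevG2.wordMat F [(8, ((-1 : ℤ) : F) * (-t) ^ 1 * u ^ 1), (9, ((1 : ℤ) : F) * (-t) ^ 2 * u ^ 1),
    (10, ((1 : ℤ) : F) * (-t) ^ 3 * u ^ 1), (11, ((1 : ℤ) : F) * (-t) ^ 3 * u ^ 2)] = _
  rw [wordMat_cons, wordMat_cons, wordMat_cons, wordMat_cons, wordMat_nil, mul_one,
    show ((-1 : ℤ) : F) * (-t) ^ 1 * u ^ 1 = t * u by push_cast; ring,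
    show ((1 : ℤ) : F) * (-t) ^ 2 * u ^ 1 = t ^ 2 * u by push_cast; ring,
    show ((1 : ℤ) : F) * (-t) ^ 3 * u ^ 1 = -(t ^ 3 * u) by push_cast; ring,
    show ((1 : ℤ) : F) * (-t) ^ 3 * u ^ 2 = -(t ^ 3 * u ^ 2) by push_cast; ring]
  simp only [mul_assoc]

theorem rel7_8 (t u : F) : X 8 u * X 7 t =
    X 7 t * (X 8 u * X 9 (2 * t * u) * X 10 (-(3 * t ^ 2 * u)) * X 11 (-(3 * t * u ^ 2))) := by
  apply Subtype.ext
  refine Units.ext ?_
  show chevG2.x F 8 u * chevG2.x F 7 t = chevG2.x F 7 t * (chevG2.x F 8 u *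
    chevG2.x F 9 (2 * t * u) * chevG2.x F 10 (-(3 * t ^ 2 * u)) * chevG2.x F 11 (-(3 * t * u ^ 2)))
  have h1 := S1025.result (F := F) chevG2 inG2 7 8 (show 7 < 12 by norm_num) (show 8 < 12 by norm_num) (by decide) (by decide) t u
  rw [ChevalleyDatum.commWord, show chevG2.commTerms 7 8 = [(9, -2, 1, 1), (10, -3, 2, 1), (11, 3, 1, 2)]
    by decide +kernel] at h1
  rw [h1]
  show _ * chevG2.wordMat F [(9, ((-2 : ℤ) : F) * (-t) ^ 1 * u ^ 1),
    (10, ((-3 : ℤ) : F) * (-t) ^ 2 * u ^ 1), (11, ((3 : ℤ) : F) * (-t) ^ 1 * u ^ 2)] = _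
  rw [wordMat_cons, wordMat_cons, wordMat_cons, wordMat_nil, mul_one,
    show ((-2 : ℤ) : F) * (-t) ^ 1 * u ^ 1 = 2 * t * u by push_cast; ring,
    show ((-3 : ℤ) : F) * (-t) ^ 2 * u ^ 1 = -(3 * t ^ 2 * u) by push_cast; ring,
    show ((3 : ℤ) : F) * (-t) ^ 1 * u ^ 2 = -(3 * t * u ^ 2) by push_cast; ring]
  simp only [mul_assoc]

theorem rel7_9 (t u : F) : X 9 u * X 7 t = X 7 t * (X 9 u * X 10 (-(3 * t * u))) := by
  have h1 := rel1 (r := 7) (s := 9) (k := 10) (c := 3) (by norm_num) (by norm_num) (by decide) (by decide)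
      (by decide +kernel) t u
  rw [h1, mul_assoc, show ((3 : ℤ) : F) * -t * u = -(3 * t * u) by push_cast; ring]

theorem rel7_10 (t u : F) : X 10 u * X 7 t = X 7 t * X 10 u :=
  rel0 (r := 7) (s := 10) (by norm_num) (by norm_num) (by decide) (by decide) (by decide +kernel) t u

theorem rel7_11 (t u : F) : X 11 u * X 7 t = X 7 t * X 11 u :=
  rel0 (r := 7) (s := 11) (by norm_num) (by norm_num) (by decide) (by decide) (by decide +kernel) t u

variable (h3 : (3 : F) ≠ 0)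

include h3 in
/-- conjugation by `X 7 t`. -/
theorem conj7 (t b c d e f : F) : (X 7 t)⁻¹ * Q5 b c d e f * X 7 t =
    Q5 b (t * b + c) (t ^ 2 * b + 2 * t * c + d) (-(t ^ 3 * b) - 3 * t ^ 2 * c - 3 * t * d + e)
      (-(t ^ 3 * b ^ 2) - 3 * t * c ^ 2 - 3 * t ^ 2 * b * c + f) := by
  have h := g2_h5 F h3
  have e6 : (X 7 t)⁻¹ * X 6 b * X 7 t = Q5 b (t * b) (t ^ 2 * b) (-(t ^ 3 * b)) (-(t ^ 3 * b ^ 2)) := by
    rw [mul_assoc, rel7_6, inv_mul_cancel_left]; rfl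
  have e8 : (X 7 t)⁻¹ * X 8 c * X 7 t = Q5 0 c (2 * t * c) (-(3 * t ^ 2 * c)) (-(3 * t * c ^ 2)) := by
    rw [mul_assoc, rel7_8, inv_mul_cancel_left]
    simp only [Q5, H5.P, X_zero, one_mul]
  have e9 : (X 7 t)⁻¹ * X 9 d * X 7 t = Q5 0 0 d (-(3 * t * d)) 0 := by
    rw [mul_assoc, rel7_9, inv_mul_cancel_left]
    simp only [Q5, H5.P, X_zero, one_mul, mul_one]
  have e10 : (X 7 t)⁻¹ * X 10 e * X 7 t = Q5 0 0 0 e 0 := by
    rw [mul_assoc, rel7_10, inv_mul_cancel_left]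
    simp only [Q5, H5.P, X_zero, one_mul, mul_one]
  have e11 : (X 7 t)⁻¹ * X 11 f * X 7 t = Q5 0 0 0 0 f := by
    rw [mul_assoc, rel7_11, inv_mul_cancel_left]
    simp only [Q5, H5.P, X_zero, one_mul, mul_one]
  have e0 : (X 7 t)⁻¹ * Q5 b c d e f * X 7 t = ((X 7 t)⁻¹ * X 6 b * X 7 t) * ((X 7 t)⁻¹ * X 8 c * X 7 t) *
      ((X 7 t)⁻¹ * X 9 d * X 7 t) * ((X 7 t)⁻¹ * X 10 e * X 7 t) * ((X 7 t)⁻¹ * X 11 f * X 7 t) := by
    simp only [Q5, H5.P]; group
  rw [e0, e6, e8, e9, e10, e11, h.mul, h.mul, h.mul, h.mul]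
  congr 1 <;> ring

/-- `U = X 7 · Q` -/
def UU : Subgroup ↥(chevG2.group F) where
  carrier := {g | ∃ a b c d e f : F, g = X 7 a * Q5 b c d e f}
  one_mem' := ⟨0, 0, 0, 0, 0, 0, by rw [X_zero, one_mul]; exact (g2_h5 F h3).one.symm⟩
  mul_mem' := by
    rintro _ _ ⟨a, b, c, d, e, f, rfl⟩ ⟨a', b', c', d', e', f', rfl⟩
    have h1 : X 7 a * Q5 b c d e f * (X 7 a' * Q5 b' c' d' e' f') =
        X 7 (a + a') * (((X 7 a')⁻¹ * Q5 b c d e f * X 7 a') * Q5 b' c' d' e' f') := by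
      rw [X_add]; group
    rw [h1, conj7 h3, (g2_h5 F h3).mul]
    exact ⟨_, _, _, _, _, _, rfl⟩
  inv_mem' := by
    rintro _ ⟨a, b, c, d, e, f, rfl⟩
    have h1 : (X 7 a * Q5 b c d e f)⁻¹ = X 7 (-a) * ((X 7 (-a))⁻¹ * (Q5 b c d e f)⁻¹ * X 7 (-a)) := by
      rw [X_neg]; group
    rw [h1, (g2_h5 F h3).inv, conj7 h3]
    exact ⟨_, _, _, _, _, _, rfl⟩

include h3 in
theorem mem_UU {v : ↥(chevG2.group F)} (hv : (v : GL chevG2.Idx F) ∈ chevG2.posUnipotent F) :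
    ∃ a b c d e f : F, v = X 7 a * Q5 b c d e f := by
  have key : chevG2.posUnipotent F ≤ (UU h3).map (Subgroup.subtype _) := by
    refine (closure_le _).2 ?_
    rintro g ⟨r, t, hr, hg⟩
    have hg' : g = ((X r t : ↥(chevG2.group F)) : GL chevG2.Idx F) := by
      apply Units.ext
      rw [hg]; rfl
    rw [hg']
    refine ⟨X r t, ?_, rfl⟩
    have hmem : r ∈ chevG2.posRoots := by
      rw [ChevalleyDatum.posRoots, List.mem_filter]
      exact ⟨List.mem_range.2 hr.1, decide_eq_true hr⟩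
    rw [H446.TC6.GTwoCent.posRoots_eq] at hmem
    simp only [List.mem_cons, List.not_mem_nil, or_false] at hmem
    rcases hmem with rfl | rfl | rfl | rfl | rfl | rfl
    · exact ⟨0, t, 0, 0, 0, 0, by simp only [Q5, H5.P, X_zero, one_mul, mul_one]⟩
    · exact ⟨t, 0, 0, 0, 0, 0, by simp only [Q5, H5.P, X_zero, one_mul, mul_one]⟩
    · exact ⟨0, 0, t, 0, 0, 0, by simp only [Q5, H5.P, X_zero, one_mul, mul_one]⟩
    · exact ⟨0, 0, 0, t, 0, 0, by simp only [Q5, H5.P, X_zero, one_mul, mul_one]⟩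
    · exact ⟨0, 0, 0, 0, t, 0, by simp only [Q5, H5.P, X_zero, one_mul, mul_one]⟩
    · exact ⟨0, 0, 0, 0, 0, t, by simp only [Q5, H5.P, X_zero, one_mul, mul_one]⟩
  obtain ⟨w, hw, e⟩ := key hv
  rw [← Subtype.ext e]
  exact hw

include h3 in
theorem X7_mem {a : F} (ha : X 7 a ∈ (g2_h5 F h3).Q) : a = 0 := by
  obtain ⟨b, c, d, e, f, hx⟩ := ha
  have h := g2_h5 F h3
  have h1 := conj7 h3 a 1 0 0 0 0
  rw [hx, h.inv, h.mul, h.mul] at h1
  have h2 := (h.inj5 h1).2.1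
  linear_combination -h2

include h3 in
theorem sep7 {a a' b c d e f b' c' d' e' f' : F} (he : X 7 a * Q5 b c d e f = X 7 a' * Q5 b' c' d' e' f') :
    a = a' ∧ Q5 b c d e f = Q5 b' c' d' e' f' := by
  have h := g2_h5 F h3
  have h1 : X 7 (-a' + a) ∈ h.Q := by
    have h2 : X 7 (-a' + a) = Q5 b' c' d' e' f' * (Q5 b c d e f)⁻¹ := by
      rw [X_add, X_neg, eq_mul_inv_iff_mul_eq, mul_assoc, he, inv_mul_cancel_left]
    rw [h2]
    exact h.Q.mul_mem ⟨_, _, _, _, _, rfl⟩ (h.Q.inv_mem ⟨_, _, _, _, _, rfl⟩)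
  have h2 := X7_mem h3 h1
  have h3' : a = a' := by linear_combination h2
  subst h3'
  exact ⟨rfl, mul_left_cancel he⟩

/-! ### the conjugates of a unipotent element -/


/-- a torus element `k` acting on the positive root groups by the scalars `e r` -/
structure Tor (k : ↥(chevG2.group F)) (e : ℕ → F) : Prop where
  act : ∀ r, 6 ≤ r → r < 12 → ∀ t, k * X r t * k⁻¹ = X r (e r * t)

theorem Tor.q5 {k : ↥(chevG2.group F)} {s : ℕ → F} (hk : Tor k s) (b c d e f : F) :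
    k * Q5 b c d e f * k⁻¹ = Q5 (s 6 * b) (s 8 * c) (s 9 * d) (s 10 * e) (s 11 * f) := by
  have h1 : k * Q5 b c d e f * k⁻¹ = (k * X 6 b * k⁻¹) * (k * X 8 c * k⁻¹) * (k * X 9 d * k⁻¹) *
      (k * X 10 e * k⁻¹) * (k * X 11 f * k⁻¹) := by
    simp only [Q5, H5.P]; group
  rw [h1, hk.act 6 (by norm_num) (by norm_num), hk.act 8 (by norm_num) (by norm_num),
    hk.act 9 (by norm_num) (by norm_num), hk.act 10 (by norm_num) (by norm_num), hk.act 11 (by norm_num) (by norm_num)]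
  rfl

theorem tor_H {i : ℕ} (hi : i < 2) {c : F} (hc : c ≠ 0) : Tor (H i c) (fun r => c ^ (chevG2.cartan i r)) :=
  ⟨fun _ _ hr t => H_conj hi hr hc t⟩

theorem tor_mul {k k' : ↥(chevG2.group F)} {e e' : ℕ → F} (h : Tor k e) (h' : Tor k' e') :
    Tor (k * k') (fun r => e r * e' r) := by
  refine ⟨fun r hr hr' t => ?_⟩
  rw [show k * k' * X r t * (k * k')⁻¹ = k * (k' * X r t * k'⁻¹) * k⁻¹ by group, h'.act r hr hr', h.act r hr hr',
    mul_assoc]

/-- torus elements separating the coordinate `s`, `s = 6, 7, 8, 9` -/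
theorem exists_tor {s : ℕ} (hs : s = 6 ∨ s = 7 ∨ s = 8 ∨ s = 9) :
    ∃ (k : F → ↥(chevG2.group F)) (e : F → ℕ → F), (∀ c, c ≠ 0 → (k c : GL chevG2.Idx F) ∈ chevG2.diagonalSubgroup F) ∧
      (∀ c, c ≠ 0 → Tor (k c) (e c)) ∧ (∀ c c', c ≠ 0 → c' ≠ 0 → e c s = e c' s → c = c') := by
  have hT : ∀ i < 2, ∀ c : F, c ≠ 0 → (H i c : GL chevG2.Idx F) ∈ chevG2.diagonalSubgroup F := by
    intro i hi c hc
    exact hG_mem_diagonal inG2 (by interval_cases i <;> decide) hc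
  rcases hs with rfl | rfl | rfl | rfl
  · refine ⟨fun c => H 0 c * H 1 c, fun c r => c ^ (chevG2.cartan 0 r) * c ^ (chevG2.cartan 1 r), ?_, ?_, ?_⟩
    · intro c hc
      exact mul_mem (hT 0 (by norm_num) c hc) (hT 1 (by norm_num) c hc)
    · intro c hc
      exact tor_mul (tor_H (by norm_num) hc) (tor_H (by norm_num) hc)
    · intro c c' hc hc' he
      have e0 : chevG2.cartan 0 6 = -3 := by decide
      have e1 : chevG2.cartan 1 6 = 2 := by decide
      simp only [e0, e1, ← zpow_add₀ hc, ← zpow_add₀ hc'] at he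
      simpa using he
  · refine ⟨H 1, fun c r => c ^ (chevG2.cartan 1 r), hT 1 (by norm_num), fun c hc => tor_H (by norm_num) hc, ?_⟩
    intro c c' hc hc' he
    have e1 : chevG2.cartan 1 7 = -1 := by decide
    simp only [e1] at he
    simpa using he
  · refine ⟨H 1, fun c r => c ^ (chevG2.cartan 1 r), hT 1 (by norm_num), fun c hc => tor_H (by norm_num) hc, ?_⟩
    intro c c' hc hc' he
    have e1 : chevG2.cartan 1 8 = 1 := by decide
    simp only [e1] at he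
    simpa using he
  · refine ⟨H 0, fun c r => c ^ (chevG2.cartan 0 r), hT 0 (by norm_num), fun c hc => tor_H (by norm_num) hc, ?_⟩
    intro c c' hc hc' he
    have e1 : chevG2.cartan 0 9 = 1 := by decide
    simp only [e1] at he
    simpa using he

/-- the Borel subgroup -/
noncomputable def BB (F : Type u) [Field F] : Subgroup ↥(chevG2.group F) := (chevG2.borelSubgroup F).subgroupOf _

theorem X_mem_BB {r : ℕ} (h6 : 6 ≤ r) (h12 : r < 12) (t : F) : X r t ∈ BB F := by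
  refine (le_sup_left : chevG2.posUnipotent F ≤ chevG2.borelSubgroup F) ?_
  refine xG_mem_posUnipotent inG2 ?_ _
  interval_cases r <;> decide

theorem k_mem_BB {k : ↥(chevG2.group F)} (hk : (k : GL chevG2.Idx F) ∈ chevG2.diagonalSubgroup F) : k ∈ BB F :=
  (le_sup_right : chevG2.diagonalSubgroup F ≤ chevG2.borelSubgroup F) hk

theorem Q5_mem_BB (b c d e f : F) : Q5 b c d e f ∈ BB F :=
  mul_mem (mul_mem (mul_mem (mul_mem (X_mem_BB (by norm_num) (by norm_num) _) (X_mem_BB (by norm_num) (by norm_num) _))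
    (X_mem_BB (by norm_num) (by norm_num) _)) (X_mem_BB (by norm_num) (by norm_num) _))
    (X_mem_BB (by norm_num) (by norm_num) _)

/-- many conjugates under `B` -/
def Many (v : ↥(chevG2.group F)) : Prop :=
  ∃ f : Fˣ × F × F → ↥(chevG2.group F), (∀ i, f i ∈ BB F) ∧ Function.Injective (fun i => f i * v * (f i)⁻¹)

/-- the frame of the three computations -/
theorem many_of {v : ↥(chevG2.group F)} {k : F → ↥(chevG2.group F)}
    (hkD : ∀ c, c ≠ 0 → (k c : GL chevG2.Idx F) ∈ chevG2.diagonalSubgroup F)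
    (y : F → F → ↥(chevG2.group F)) (hy : ∀ t s, y t s ∈ BB F)
    (hk : ∀ c c' t s t' s', c ≠ 0 → c' ≠ 0 →
      k c * (y t s * v * (y t s)⁻¹) * (k c)⁻¹ = k c' * (y t' s' * v * (y t' s')⁻¹) * (k c')⁻¹ → c = c')
    (hinj : ∀ t s t' s', y t s * v * (y t s)⁻¹ = y t' s' * v * (y t' s')⁻¹ → t = t' ∧ s = s') : Many v := by
  refine ⟨fun i => k i.1 * y i.2.1 i.2.2, fun i => mul_mem (k_mem_BB (hkD _ i.1.ne_zero)) (hy _ _), ?_⟩
  rintro ⟨c, t, s⟩ ⟨c', t', s'⟩ hij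
  simp only at hij
  have e1 : ∀ (a b : ↥(chevG2.group F)), a * b * v * (a * b)⁻¹ = a * (b * v * b⁻¹) * a⁻¹ := by intro a b; group
  rw [e1, e1] at hij
  have h1 := hk _ _ _ _ _ _ c.ne_zero c'.ne_zero hij
  have h2 : c = c' := Units.ext h1
  subst h2
  have h3 := mul_left_cancel (mul_right_cancel hij)
  obtain ⟨h4, h5⟩ := hinj _ _ _ _ h3
  rw [h4, h5]

variable (h2 : (2 : F) ≠ 0)

include h2 h3 in
theorem many7 {a b c d e f : F} (ha : a ≠ 0) : Many (X 7 a * Q5 b c d e f) := by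
  have h := g2_h5 F h3
  obtain ⟨k, s, hkD, hk, hs⟩ := exists_tor (F := F) (s := 7) (by norm_num)
  have key : ∀ t r : F, ∃ z, Q5 0 t r 0 0 * (X 7 a * Q5 b c d e f) * (Q5 0 t r 0 0)⁻¹ =
      X 7 a * Q5 b c (d + 2 * a * t) (e - 3 * a ^ 2 * t - 3 * a * r) z := by
    intro t r
    have h1 : Q5 0 t r 0 0 * (X 7 a * Q5 b c d e f) * (Q5 0 t r 0 0)⁻¹ =
        X 7 a * (((X 7 a)⁻¹ * Q5 0 t r 0 0 * X 7 a) * Q5 b c d e f * (Q5 0 t r 0 0)⁻¹) := by group
    rw [h1, conj7 h3, h.mul, h.inv, h.mul]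
    exact ⟨_, congrArg (fun z => X 7 a * z) (Q5_congr (by ring) (by ring) (by ring) (by ring) rfl)⟩
  refine many_of hkD (fun t r => Q5 0 t r 0 0) (fun t r => Q5_mem_BB _ _ _ _ _) ?_ ?_
  · intro x x' t r t' r' hx hx' he
    obtain ⟨z, hz⟩ := key t r
    obtain ⟨z', hz'⟩ := key t' r'
    beta_reduce at he
    rw [hz, hz'] at he
    have e1 : ∀ (g y w : ↥(chevG2.group F)), g * (y * w) * g⁻¹ = (g * y * g⁻¹) * (g * w * g⁻¹) := by
      intro g y w; group
    rw [e1, e1, (hk x hx).act 7 (by norm_num) (by norm_num), (hk x' hx').act 7 (by norm_num) (by norm_num),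
      (hk x hx).q5, (hk x' hx').q5] at he
    have h1 := (sep7 h3 he).1
    exact hs x x' hx hx' (mul_right_cancel₀ ha h1)
  · intro t r t' r' he
    obtain ⟨z, hz⟩ := key t r
    obtain ⟨z', hz'⟩ := key t' r'
    beta_reduce at he
    rw [hz, hz'] at he
    obtain ⟨-, -, h4, h5, -⟩ := h.inj5 (sep7 h3 he).2
    have h6 : t = t' := by
      have : 2 * a * t = 2 * a * t' := by linear_combination h4
      exact mul_left_cancel₀ (mul_ne_zero h2 ha) this
    subst h6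
    have h7 : 3 * a * r = 3 * a * r' := by linear_combination -h5
    exact ⟨rfl, mul_left_cancel₀ (mul_ne_zero h3 ha) h7⟩

include h3 in
theorem many6 {b c d e f : F} (hb : b ≠ 0) : Many (Q5 b c d e f) := by
  have h := g2_h5 F h3
  obtain ⟨k, s, hkD, hk, hs⟩ := exists_tor (F := F) (s := 6) (by norm_num)
  have key : ∀ t r : F, ((X 7 t)⁻¹ * Q5 0 0 0 r 0) * Q5 b c d e f * ((X 7 t)⁻¹ * Q5 0 0 0 r 0)⁻¹ =
      Q5 b (t * b + c) (t ^ 2 * b + 2 * t * c + d) (-(t ^ 3 * b) - 3 * t ^ 2 * c - 3 * t * d + e)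
      (-(t ^ 3 * b ^ 2) - 3 * t * c ^ 2 - 3 * t ^ 2 * b * c + (f - r * b)) := by
    intro t r
    have h1 : ((X 7 t)⁻¹ * Q5 0 0 0 r 0) * Q5 b c d e f * ((X 7 t)⁻¹ * Q5 0 0 0 r 0)⁻¹ =
        (X 7 t)⁻¹ * (Q5 0 0 0 r 0 * Q5 b c d e f * (Q5 0 0 0 r 0)⁻¹) * X 7 t := by group
    rw [h1, h.conj, h.eq_E_mul, conj7 h3]
    congr 1
    ring
  refine many_of hkD (fun t r => (X 7 t)⁻¹ * Q5 0 0 0 r 0)
    (fun t r => mul_mem (inv_mem (X_mem_BB (by norm_num) (by norm_num) _)) (Q5_mem_BB _ _ _ _ _)) ?_ ?_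
  · intro x x' t r t' r' hx hx' he
    beta_reduce at he
    rw [key, key, (hk x hx).q5, (hk x' hx').q5] at he
    exact hs x x' hx hx' (mul_right_cancel₀ hb (h.inj5 he).1)
  · intro t r t' r' he
    beta_reduce at he
    rw [key, key] at he
    obtain ⟨-, h4, -, -, h5⟩ := h.inj5 he
    have h6 : t = t' := by
      have : t * b = t' * b := by linear_combination h4
      exact mul_right_cancel₀ hb this
    subst h6
    have h7 : r * b = r' * b := by linear_combination -h5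
    exact ⟨rfl, mul_right_cancel₀ hb h7⟩

include h2 h3 in
theorem many8 {c d e f : F} (hc : c ≠ 0) : Many (Q5 0 c d e f) := by
  have h := g2_h5 F h3
  obtain ⟨k, s, hkD, hk, hs⟩ := exists_tor (F := F) (s := 8) (by norm_num)
  have key : ∀ t r : F, ((X 7 t)⁻¹ * Q5 0 0 r 0 0) * Q5 0 c d e f * ((X 7 t)⁻¹ * Q5 0 0 r 0 0)⁻¹ =
      Q5 0 c (2 * t * c + d) (- 3 * t ^ 2 * c - 3 * t * d + e)
      (- 3 * t * c ^ 2 + (f - 3 * r * c)) := by
    intro t r
    have h1 : ((X 7 t)⁻¹ * Q5 0 0 r 0 0) * Q5 0 c d e f * ((X 7 t)⁻¹ * Q5 0 0 r 0 0)⁻¹ =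
        (X 7 t)⁻¹ * (Q5 0 0 r 0 0 * Q5 0 c d e f * (Q5 0 0 r 0 0)⁻¹) * X 7 t := by group
    rw [h1, h.conj, h.eq_E_mul, conj7 h3]
    congr 1 <;> ring
  refine many_of hkD (fun t r => (X 7 t)⁻¹ * Q5 0 0 r 0 0)
    (fun t r => mul_mem (inv_mem (X_mem_BB (by norm_num) (by norm_num) _)) (Q5_mem_BB _ _ _ _ _)) ?_ ?_
  · intro x x' t r t' r' hx hx' he
    beta_reduce at he
    rw [key, key, (hk x hx).q5, (hk x' hx').q5] at he
    exact hs x x' hx hx' (mul_right_cancel₀ hc (h.inj5 he).2.1)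
  · intro t r t' r' he
    beta_reduce at he
    rw [key, key] at he
    obtain ⟨-, -, h4, -, h5⟩ := h.inj5 he
    have h6 : t = t' := by
      have : 2 * c * t = 2 * c * t' := by linear_combination h4
      exact mul_left_cancel₀ (mul_ne_zero h2 hc) this
    subst h6
    have h7 : 3 * c * r = 3 * c * r' := by linear_combination -h5
    exact ⟨rfl, mul_left_cancel₀ (mul_ne_zero h3 hc) h7⟩

include h3 in
theorem many9 {d e f : F} (hd : d ≠ 0) : Many (Q5 0 0 d e f) := by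
  have h := g2_h5 F h3
  obtain ⟨k, s, hkD, hk, hs⟩ := exists_tor (F := F) (s := 9) (by norm_num)
  have key : ∀ t r : F, ((X 7 t)⁻¹ * Q5 0 r 0 0 0) * Q5 0 0 d e f * ((X 7 t)⁻¹ * Q5 0 r 0 0 0)⁻¹ =
      Q5 0 0 d (- 3 * t * d + e) (f + 3 * d * r) := by
    intro t r
    have h1 : ((X 7 t)⁻¹ * Q5 0 r 0 0 0) * Q5 0 0 d e f * ((X 7 t)⁻¹ * Q5 0 r 0 0 0)⁻¹ =
        (X 7 t)⁻¹ * (Q5 0 r 0 0 0 * Q5 0 0 d e f * (Q5 0 r 0 0 0)⁻¹) * X 7 t := by group
    rw [h1, h.conj, h.eq_E_mul, conj7 h3]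
    congr 1 <;> ring
  refine many_of hkD (fun t r => (X 7 t)⁻¹ * Q5 0 r 0 0 0)
    (fun t r => mul_mem (inv_mem (X_mem_BB (by norm_num) (by norm_num) _)) (Q5_mem_BB _ _ _ _ _)) ?_ ?_
  · intro x x' t r t' r' hx hx' he
    beta_reduce at he
    rw [key, key, (hk x hx).q5, (hk x' hx').q5] at he
    exact hs x x' hx hx' (mul_right_cancel₀ hd (h.inj5 he).2.2.1)
  · intro t r t' r' he
    beta_reduce at he
    rw [key, key] at he
    obtain ⟨-, -, -, h4, h5⟩ := h.inj5 he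
    have h6 : t = t' := by
      have : 3 * d * t = 3 * d * t' := by linear_combination -h4
      exact mul_left_cancel₀ (mul_ne_zero h3 hd) this
    subst h6
    have h7 : 3 * d * r = 3 * d * r' := by linear_combination h5
    exact ⟨rfl, mul_left_cancel₀ (mul_ne_zero h3 hd) h7⟩

include h3 in
/-- the elements of `X 10 X 11` are long root elements -/
theorem long_of {e f : F} (h0 : e ≠ 0 ∨ f ≠ 0) : IsConj (X 11 1) (Q5 0 0 0 e f) := by
  have h := g2_h5 F h3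
  by_cases he : e = 0
  · subst he
    have hf : f ≠ 0 := h0.resolve_left (fun h => h rfl)
    have h1 : Q5 0 0 0 0 f = X 11 f := (h.E_eq f).symm
    rw [h1]
    exact g2_long_conj hf
  · -- conjugate by `X 6` to `(e, 1)`, then by `X 5`
    have h1 : IsConj (Q5 0 0 0 e f) (Q5 0 0 0 e 1) := by
      rw [isConj_iff]
      refine ⟨Q5 ((1 - f) / e) 0 0 0 0, ?_⟩
      rw [h.conj, h.eq_E_mul]
      congr 1
      field_simp
      ring
    refine IsConj.symm (h1.trans ?_)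
    rw [isConj_iff]
    have r11 : ∀ t u : F, X 11 u * X 5 t = X 5 t * X 11 u * X 10 (-(t * u)) := by
      intro t u
      rw [rel1 (r := 5) (s := 11) (k := 10) (c := 1) (by norm_num) (by norm_num) (by decide) (by decide)
        (by decide +kernel) t u]
      congr 2
      push_cast
      ring
    have r10 : ∀ t u : F, X 10 u * X 5 t = X 5 t * X 10 u :=
      fun t u => rel0 (r := 5) (s := 10) (by norm_num) (by norm_num) (by decide) (by decide) (by decide +kernel) t u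
    refine ⟨(X 5 e)⁻¹, ?_⟩
    have e1 : Q5 0 0 0 e 1 = X 10 e * X 11 1 := by simp only [Q5, H5.P, X_zero, one_mul]
    rw [e1, inv_inv, mul_assoc, mul_assoc, r11, ← mul_assoc (X 10 e), ← mul_assoc (X 10 e), r10,
      show (X 5 e)⁻¹ * (X 5 e * X 10 e * X 11 1 * X 10 (-(e * 1))) = X 10 e * X 11 1 * X 10 (-(e * 1)) by group,
      mul_assoc, h.ED, ← mul_assoc, ← X_add, mul_one, add_neg_cancel, X_zero, one_mul]

include h2 h3 in
/-- **Unipotent elements.** -/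
theorem unip {v : ↥(chevG2.group F)} (hv : (v : GL chevG2.Idx F) ∈ chevG2.posUnipotent F) (hv1 : v ≠ 1) :
    IsConj (X 11 1) v ∨ Many v := by
  obtain ⟨a, b, c, d, e, f, rfl⟩ := mem_UU h3 hv
  by_cases ha : a = 0
  · subst ha
    rw [X_zero, one_mul] at hv1 ⊢
    by_cases hb : b = 0
    · subst hb
      by_cases hc : c = 0
      · subst hc
        by_cases hd : d = 0
        · subst hd
          left
          refine long_of h3 ?_
          by_contra hcon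
          push Not at hcon
          apply hv1
          rw [hcon.1, hcon.2]
          exact (g2_h5 F h3).one
        · exact Or.inr (many9 h3 hd)
      · exact Or.inr (many8 h3 h2 hc)
    · exact Or.inr (many6 h3 hb)
  · exact Or.inr (many7 h3 h2 ha)

end Cfsg.Agent.H97.TC.G2C
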