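import Cfsg.Agent.H97.TC.G2Q

/-!
# Semisimple elements acting on a Heisenberg group `q^(1+4)` (helper97, S2464)

`H5.two`: `s` normalises `Q`, centralises `Z`, `s ^ m = 1` with `m ≠ 0` in `F`, `s` does not centralise `Q`:
`s` has at least `q ^ 2` conjugates under `Q`.
-/

set_option autoImplicit false

open Cfsg Subgroup

namespace Cfsg.Agent.H97.TC

universe u

/-- the alternating form -/
def om {F : Type u} [Field F] (k l : F) (x y : F × F × F × F) : F :=
  k * (x.2.2.2 * y.1 - y.2.2.2 * x.1) + l * (x.2.2.1 * y.2.1 - y.2.2.1 * x.2.1)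

section form

variable {F : Type u} [Field F] {k l : F}

theorem om_add_left (x x' y : F × F × F × F) : om k l (x + x') y = om k l x y + om k l x' y := by
  simp only [om, Prod.fst_add, Prod.snd_add]; ring

theorem om_add_right (x y y' : F × F × F × F) : om k l x (y + y') = om k l x y + om k l x y' := by
  simp only [om, Prod.fst_add, Prod.snd_add]; ring

theorem om_sub_left (x x' y : F × F × F × F) : om k l (x - x') y = om k l x y - om k l x' y := by
  simp only [om, Prod.fst_sub, Prod.snd_sub]; ring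

theorem om_sub_right (x y y' : F × F × F × F) : om k l x (y - y') = om k l x y - om k l x y' := by
  simp only [om, Prod.fst_sub, Prod.snd_sub]; ring

theorem om_smul_left (t : F) (x y : F × F × F × F) : om k l (t • x) y = t * om k l x y := by
  simp only [om, Prod.smul_fst, Prod.smul_snd, smul_eq_mul]; ring

theorem om_self (x : F × F × F × F) : om k l x x = 0 := by
  simp only [om]; ring

theorem om_swap (x y : F × F × F × F) : om k l x y = - om k l y x := by
  simp only [om]; ring

theorem om_nondeg (hk : k ≠ 0) (hl : l ≠ 0) {x : F × F × F × F} (h : ∀ y, om k l x y = 0) : x = 0 := by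
  have h1 := h (1, 0, 0, 0)
  have h2 := h (0, 1, 0, 0)
  have h3 := h (0, 0, 1, 0)
  have h4 := h (0, 0, 0, 1)
  simp only [om, mul_one, mul_zero, zero_mul, sub_zero, one_mul, zero_sub, add_zero, zero_add, mul_eq_zero,
    neg_eq_zero, hk, hl, false_or] at h1 h2 h3 h4
  ext <;> simp [h1, h2, h3, h4]

/-- linear algebra: the commutator space is not isotropic. -/
theorem exists_ab (hk : k ≠ 0) (hl : l ≠ 0) {S : F × F × F × F → F × F × F × F}
    (hadd : ∀ x y, S (x + y) = S x + S y) (hom : ∀ x y, om k l (S x) (S y) = om k l x y)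
    {m : ℕ} (hm : (m : F) ≠ 0) (hS : ∀ x, S^[m] x = x) (hne : ∃ x, S x ≠ x) :
    ∃ x y, om k l (S x - x) (S y - y) ≠ 0 := by
  by_contra hcon
  push Not at hcon
  obtain ⟨x, hx⟩ := hne
  have hsub : ∀ x y, S (x - y) = S x - S y := by
    intro x y
    have := hadd (x - y) y
    rw [sub_add_cancel] at this
    rw [this, add_sub_cancel_right]
  have hsurj : ∀ y, ∃ z, S z = y := by
    intro y
    rcases Nat.eq_zero_or_pos m with h0 | h0
    · subst h0; simp at hm
    · refine ⟨S^[m - 1] y, ?_⟩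
      rw [← Function.iterate_succ_apply' S, Nat.succ_eq_add_one, Nat.sub_add_cancel h0, hS]
  obtain ⟨a, ha⟩ : ∃ a, a = S x - x := ⟨_, rfl⟩
  have h1 : S a = a := by
    have h2 : S a - a = 0 := by
      refine om_nondeg hk hl (k := k) (l := l) fun y => ?_
      obtain ⟨z, rfl⟩ := hsurj y
      have h3 := hcon x z
      rw [← ha, om_sub_right] at h3
      rw [om_sub_left, hom]
      linear_combination -h3
    exact sub_eq_zero.1 h2
  have h2 : ∀ n : ℕ, S^[n] x = x + n • a := by
    intro n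
    induction n with
    | zero => simp
    | succ n ih =>
      have h3 : ∀ n : ℕ, S (n • a) = n • a := by
        intro n
        induction n with
        | zero =>
          have := hadd 0 0
          rw [add_zero] at this
          rw [zero_smul]
          exact left_eq_add.1 this
        | succ n ih => rw [succ_nsmul, hadd, ih, h1]
      rw [Function.iterate_succ_apply', ih, hadd, h3, succ_nsmul, ha]
      abel
  have h3 := h2 m
  rw [hS, left_eq_add] at h3
  have h4 : (m : F) • a = 0 := by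
    rw [Nat.cast_smul_eq_nsmul]; exact h3
  have h5 : a = 0 := (smul_eq_zero.1 h4).resolve_left hm
  rw [h5] at ha
  exact hx (sub_eq_zero.1 ha.symm)

end form

namespace H5

variable {F : Type u} [Field F] {G : Type u} [Group G] {A B C D E : F → G} {k l : F}

/-- the general element, vector notation -/
def V (A B C D E : F → G) (x : F × F × F × F) (e : F) : G := P A B C D E x.1 x.2.1 x.2.2.1 x.2.2.2 e

variable (h : H5 F A B C D E k l)
include h

theorem V_mem (x : F × F × F × F) (e : F) : V A B C D E x e ∈ h.Q := ⟨_, _, _, _, _, rfl⟩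

theorem exists_V {g : G} (hg : g ∈ h.Q) : ∃ x e, g = V A B C D E x e := by
  obtain ⟨a, b, c, d, e, rfl⟩ := hg
  exact ⟨(a, b, c, d), e, rfl⟩

theorem V_inj {x y : F × F × F × F} {e e' : F} (he : V A B C D E x e = V A B C D E y e') : x = y ∧ e = e' := by
  obtain ⟨h1, h2, h3, h4, h5⟩ := h.inj5 he
  exact ⟨Prod.ext h1 (Prod.ext h2 (Prod.ext h3 h4)), h5⟩

theorem V_mul (x y : F × F × F × F) (e e' : F) : V A B C D E x e * V A B C D E y e' =
    V A B C D E (x + y) (e + e' + k * x.2.2.2 * y.1 + l * x.2.2.1 * y.2.1) := h.mul _ _ _ _ _ _ _ _ _ _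

theorem V_conj (x y : F × F × F × F) (e e' : F) : V A B C D E x e * V A B C D E y e' * (V A B C D E x e)⁻¹ =
    E (om k l x y) * V A B C D E y e' := h.conj _ _ _ _ _ _ _ _ _ _

theorem V_conj' (x y : F × F × F × F) (e e' : F) : V A B C D E x e * V A B C D E y e' * (V A B C D E x e)⁻¹ =
    V A B C D E y (om k l x y + e') := by
  rw [h.V_conj]
  exact h.eq_E_mul _ _ _ _ _ _

/-- **`q ^ 2` conjugates of a semisimple element.** -/
theorem two {s : G} (hsN : ∀ x ∈ h.Q, s * x * s⁻¹ ∈ h.Q) (hsZ : ∀ e, s * E e * s⁻¹ = E e) {m : ℕ} (hm : s ^ m = 1)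
    (hmF : (m : F) ≠ 0) (hne : ∃ x ∈ h.Q, s * x * s⁻¹ ≠ x) :
    ∃ f : F × F → G, (∀ i, f i ∈ h.Q) ∧ Function.Injective (fun i => f i * s * (f i)⁻¹) := by
  have key : ∀ x : F × F × F × F, ∃ y, ∃ e, s * V A B C D E x 0 * s⁻¹ = V A B C D E y e := fun x =>
    h.exists_V (hsN _ (h.V_mem x 0))
  choose S hS0 using key
  choose ζ hS0 using hS0
  have hS : ∀ x e, s * V A B C D E x e * s⁻¹ = V A B C D E (S x) (ζ x + e) := by
    intro x e
    have h1 : V A B C D E x e = E e * V A B C D E x 0 := by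
      have := h.eq_E_mul x.1 x.2.1 x.2.2.1 x.2.2.2 0 e
      rw [add_zero] at this
      exact this.symm
    have h2 : E e * V A B C D E (S x) (ζ x) = V A B C D E (S x) (e + ζ x) := h.eq_E_mul _ _ _ _ _ _
    rw [h1, show s * (E e * V A B C D E x 0) * s⁻¹ = (s * E e * s⁻¹) * (s * V A B C D E x 0 * s⁻¹) by group, hsZ,
      hS0, h2, add_comm]
  have hadd : ∀ x y, S (x + y) = S x + S y := by
    intro x y
    have h1 := congrArg (fun z => s * z * s⁻¹) (h.V_mul x y 0 0)
    beta_reduce at h1
    rw [hS, show s * (V A B C D E x 0 * V A B C D E y 0) * s⁻¹ =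
      (s * V A B C D E x 0 * s⁻¹) * (s * V A B C D E y 0 * s⁻¹) by group, hS, hS, h.V_mul] at h1
    exact (h.V_inj h1).1.symm
  have hom : ∀ x y, om k l (S x) (S y) = om k l x y := by
    intro x y
    have h1 := congrArg (fun z => s * z * s⁻¹) (h.V_conj' x y 0 0)
    beta_reduce at h1
    rw [hS, show s * (V A B C D E x 0 * V A B C D E y 0 * (V A B C D E x 0)⁻¹) * s⁻¹ =
      (s * V A B C D E x 0 * s⁻¹) * (s * V A B C D E y 0 * s⁻¹) * (s * V A B C D E x 0 * s⁻¹)⁻¹ by group, hS, hS,
      h.V_conj'] at h1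
    have h2 := (h.V_inj h1).2
    linear_combination h2
  have hpow : ∀ (n : ℕ) (x : F × F × F × F), ∃ e, s ^ n * V A B C D E x 0 * (s ^ n)⁻¹ = V A B C D E (S^[n] x) e := by
    intro n x
    induction n with
    | zero => exact ⟨0, by simp⟩
    | succ n ih =>
      obtain ⟨e, he⟩ := ih
      refine ⟨ζ (S^[n] x) + e, ?_⟩
      rw [pow_succ', show s * s ^ n * V A B C D E x 0 * (s * s ^ n)⁻¹ =
        s * (s ^ n * V A B C D E x 0 * (s ^ n)⁻¹) * s⁻¹ by group, he, hS, Function.iterate_succ_apply']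
  have hSm : ∀ x, S^[m] x = x := by
    intro x
    obtain ⟨e, he⟩ := hpow m x
    rw [hm, one_mul, inv_one, mul_one] at he
    exact (h.V_inj he).1.symm
  have hneS : ∃ x, S x ≠ x := by
    by_contra hcon
    push Not at hcon
    obtain ⟨x, hx, hx1⟩ := hne
    obtain ⟨x, e, rfl⟩ := h.exists_V hx
    apply hx1
    have h1 : ∀ n : ℕ, s ^ n * V A B C D E x e * (s ^ n)⁻¹ = V A B C D E x (n * ζ x + e) := by
      intro n
      induction n with
      | zero => simp
      | succ n ih =>
        rw [pow_succ', show s * s ^ n * V A B C D E x e * (s * s ^ n)⁻¹ =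
          s * (s ^ n * V A B C D E x e * (s ^ n)⁻¹) * s⁻¹ by group, ih, hS, hcon]
        congr 1
        push_cast
        ring
    have h2 := h1 m
    rw [hm, one_mul, inv_one, mul_one] at h2
    have h3 := (h.V_inj h2).2
    have h4 : (m : F) * ζ x = 0 := by linear_combination -h3
    have h5 : ζ x = 0 := (mul_eq_zero.1 h4).resolve_left hmF
    rw [hS, hcon, h5, zero_add]
  obtain ⟨x, y, hxy⟩ := exists_ab h.k0 h.l0 hadd hom hmF hSm hneS
  obtain ⟨a, ha⟩ : ∃ a, a = S x - x := ⟨_, rfl⟩
  obtain ⟨b, hb⟩ : ∃ b, b = S y - y := ⟨_, rfl⟩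
  rw [← ha, ← hb] at hxy
  refine ⟨fun i => V A B C D E (i.1 • a + i.2 • b) 0, fun i => h.V_mem _ _, ?_⟩
  rintro ⟨t, u⟩ ⟨t', u'⟩ hij
  simp only at hij
  -- the difference is fixed by `S`
  obtain ⟨v, hv⟩ : ∃ v, v = t • a + u • b := ⟨_, rfl⟩
  obtain ⟨v', hv'⟩ : ∃ v', v' = t' • a + u' • b := ⟨_, rfl⟩
  rw [← hv, ← hv'] at hij
  have hfix : S v - v = S v' - v' := by
    -- `V v 0 * s = E.. ` rewrite: `V v 0 * s * (V v 0)⁻¹ = V v 0 * (s * V v 0 * s⁻¹)⁻¹ * s`
    have e1 : ∀ w, V A B C D E w 0 * s * (V A B C D E w 0)⁻¹ = V A B C D E w 0 * (s * V A B C D E w 0 * s⁻¹)⁻¹ * s := by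
      intro w; group
    rw [e1 v, e1 v', hS, hS] at hij
    have h1 := mul_right_cancel hij
    have h2 : ∀ w, ∃ e, V A B C D E w 0 * (V A B C D E (S w) (ζ w + 0))⁻¹ = V A B C D E (w - S w) e := by
      intro w
      have h3 : (V A B C D E (S w) (ζ w + 0))⁻¹ = V A B C D E (-S w) (-(ζ w + 0) + k * (S w).2.2.2 * (S w).1 +
          l * (S w).2.2.1 * (S w).2.1) := h.inv _ _ _ _ _
      rw [h3, h.V_mul, ← sub_eq_add_neg]
      exact ⟨_, rfl⟩
    obtain ⟨e, he⟩ := h2 v
    obtain ⟨e', he'⟩ := h2 v'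
    rw [he, he'] at h1
    have h4 := (h.V_inj h1).1
    have h5 : -(v - S v) = -(v' - S v') := by rw [h4]
    simpa using h5
  have hsub : ∀ x y, S (x - y) = S x - S y := by
    intro x y
    have := hadd (x - y) y
    rw [sub_add_cancel] at this
    rw [this, add_sub_cancel_right]
  have hδ : S (v - v') = v - v' := by
    rw [hsub]
    have : S v = S v' - v' + v := by rw [← hfix]; abel
    rw [this]; abel
  have horth : ∀ z, om k l (v - v') (S z - z) = 0 := by
    intro z
    rw [om_sub_right]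
    nth_rw 1 [← hδ]
    rw [hom, sub_self]
  have h1 := horth x
  have h2 := horth y
  rw [← ha] at h1
  rw [← hb] at h2
  have h3 : v - v' = (t - t') • a + (u - u') • b := by
    rw [hv, hv', sub_smul, sub_smul]; abel
  rw [h3, om_add_left, om_smul_left, om_smul_left, om_self, mul_zero] at h1 h2
  rw [zero_add, om_swap b a] at h1
  rw [add_zero] at h2
  have h4 : t - t' = 0 := (mul_eq_zero.1 h2).resolve_right hxy
  have h5 : u - u' = 0 := by
    have : (u - u') * om k l a b = 0 := by linear_combination -h1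
    exact (mul_eq_zero.1 this).resolve_right hxy
  rw [sub_eq_zero.1 h4, sub_eq_zero.1 h5]

end H5

end Cfsg.Agent.H97.TC
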